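import Cfsg.Agent.Lib.Helper95.AutO.Geo

set_option autoImplicit false
set_option linter.unusedSimpArgs false

/-! The projective group `PT Q = Ω / Z(Ω)` and images of subgroups of `O(V)` in it. -/

namespace Cfsg.Agent.Lib.Helper95.AutO

open QuadraticMap Module Cfsg.Agent.Lib.Helper49 Cfsg.Agent.Lib.Helper95

section defs

variable {F V : Type*} [Field F] [AddCommGroup V] [Module F V] (Q : QuadraticForm F V)

/-- `Ω` -/
abbrev Om : Subgroup (OG Q) := commutator (OG Q)

/-- `PΩ` -/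
abbrev PT : Type _ := ↥(Om Q) ⧸ Subgroup.center ↥(Om Q)

/-- the projection `Ω → PΩ` -/
def pr : ↥(Om Q) →* PT Q := QuotientGroup.mk' _

/-- the image in `PΩ` of `H ∩ Ω` -/
def img (H : Subgroup (OG Q)) : Subgroup (PT Q) := (H.subgroupOf (Om Q)).map (pr Q)

variable {Q}

lemma pr_surjective : Function.Surjective (pr Q) := QuotientGroup.mk'_surjective _

lemma mem_img {H : Subgroup (OG Q)} {t : PT Q} :
    t ∈ img Q H ↔ ∃ g : ↥(Om Q), g.1 ∈ H ∧ pr Q g = t := by
  rw [img, Subgroup.mem_map]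
  constructor
  · rintro ⟨g, hg, rfl⟩
    exact ⟨g, Subgroup.mem_subgroupOf.1 hg, rfl⟩
  · rintro ⟨g, hg, rfl⟩
    exact ⟨g, Subgroup.mem_subgroupOf.2 hg, rfl⟩

lemma pr_mem_img {H : Subgroup (OG Q)} {g : ↥(Om Q)} (hg : g.1 ∈ H) : pr Q g ∈ img Q H :=
  mem_img.2 ⟨g, hg, rfl⟩

lemma img_mono {H K : Subgroup (OG Q)} (h : ∀ g ∈ Om Q, g ∈ H → g ∈ K) : img Q H ≤ img Q K := by
  intro t ht
  obtain ⟨g, hg, rfl⟩ := mem_img.1 ht
  exact pr_mem_img (h g.1 g.2 hg)

lemma pr_eq_iff {g h : ↥(Om Q)} : pr Q g = pr Q h ↔ g⁻¹ * h ∈ Subgroup.center ↥(Om Q) :=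
  QuotientGroup.eq

lemma pr_eq_one_iff {g : ↥(Om Q)} : pr Q g = 1 ↔ g ∈ Subgroup.center ↥(Om Q) :=
  QuotientGroup.eq_one_iff g

lemma mem_center_of_scalar {g : ↥(Om Q)} {c : F} (h : ∀ x, g.1.1 x = c • x) :
    g ∈ Subgroup.center ↥(Om Q) := by
  rw [Subgroup.mem_center_iff]
  intro k
  apply Subtype.ext
  apply OG_ext
  intro x
  change k.1.1 (g.1.1 x) = g.1.1 (k.1.1 x)
  rw [h, h, map_smul]

end defs

section fin

variable {F V : Type*} [Field F] [Fintype F] [AddCommGroup V] [Module F V] [FiniteDimensional F V]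
  {Q : QuadraticForm F V}

theorem center_scalar (hQ : (polarBilin Q).Nondegenerate) (hd : 7 ≤ finrank F V)
    {z : ↥(Om Q)} (hz : z ∈ Subgroup.center ↥(Om Q)) : ∃ c : F, ∀ x, z.1.1 x = c • x := by
  apply scalar_of_fix_singular hQ hd
  intro e he
  by_cases he0 : e = 0
  · exact ⟨0, by rw [he0]; simp⟩
  by_contra hcon
  push Not at hcon
  obtain ⟨w, hw, hQw⟩ := qexists_perp_nonsing Q hQ ![e] (by omega)
  have hew : polar Q e w = 0 := by rw [polar_comm]; exact hw 0
  have h1 : z.1 * si Q e w * z.1⁻¹ = si Q e w := by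
    rw [Subgroup.mem_center_iff] at hz
    have := hz ⟨si Q e w, si_mem_commutator hQ (by omega) e w⟩
    have h2 := congrArg Subtype.val this
    rw [mul_inv_eq_iff_eq_mul]
    exact h2.symm
  have h2 : si Q e w ∈ QS Q (z.1.1 e) := by
    rw [← h1]
    exact conj_mem_QS (si_mem_QS he hew) z.1
  have hwe : ∀ c : F, w ≠ c • e := by
    rintro c rfl
    apply hQw
    rw [QuadraticMap.map_smul, he]; simp
  rcases mem_QS_inf hQ he he0 hcon (si_mem_QS he hew) h2 with h3 | ⟨h3, c, h4⟩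
  · obtain ⟨c, hc⟩ := (si_eq_one_iff hQ he he0 hew).1 h3
    exact hwe c hc
  · obtain ⟨c', hc'⟩ := (si_eq_si_iff hQ he he0 hew (by rw [polar_smul_right, h3]; simp)).1 h4
    apply hQw
    rw [hc', qmap_add, QuadraticMap.map_smul, QuadraticMap.map_smul, he, OG_apply, he,
      polar_smul_left, polar_smul_right, polar_comm, h3]
    simp

variable (p : ℕ) [Fact p.Prime] [CharP F p]

omit [Fintype F] in
lemma eq_one_of_pow_char {c : F} {k : ℕ} (h : c ^ p ^ k = 1) : c = 1 := by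
  have : (c - 1) ^ p ^ k = 0 := by rw [sub_pow_char_pow, h, one_pow, sub_self]
  exact sub_eq_zero.1 (pow_eq_zero_iff (pow_ne_zero _ (Fact.out : p.Prime).ne_zero) |>.1 this)

/-- a central element of `p`-power order is trivial -/
lemma center_eq_one_of_pow (hQ : (polarBilin Q).Nondegenerate) (hd : 7 ≤ finrank F V)
    {z : ↥(Om Q)} (hz : z ∈ Subgroup.center ↥(Om Q)) {k : ℕ} (hk : z ^ p ^ k = 1) : z = 1 := by
  obtain ⟨c, hc⟩ := center_scalar hQ hd hz
  have h1 : ∀ (n : ℕ) (x : V), (z ^ n).1.1 x = c ^ n • x := by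
    intro n
    induction n with
    | zero => intro x; simp
    | succ n ih =>
      intro x
      rw [pow_succ]
      change (z ^ n).1.1 (z.1.1 x) = _
      rw [hc, map_smul, ih, smul_smul, pow_succ, mul_comm]
  have hV : ∃ x : V, x ≠ 0 := by
    have : Nontrivial V := Module.nontrivial_of_finrank_pos (R := F) (by omega)
    exact exists_ne 0
  obtain ⟨x, hx⟩ := hV
  have h2 := h1 (p ^ k) x
  rw [hk] at h2
  have h3 : (c ^ p ^ k - 1) • x = 0 := by
    rw [sub_smul, ← h2, one_smul]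
    exact sub_self _
  have h4 : c = 1 :=
    eq_one_of_pow_char p (sub_eq_zero.1 ((smul_eq_zero.1 h3).resolve_right hx))
  apply Subtype.ext
  apply OG_ext
  intro y
  rw [hc, h4, one_smul]
  rfl

lemma card_center_coprime (hQ : (polarBilin Q).Nondegenerate) (hd : 7 ≤ finrank F V) :
    (Nat.card (Subgroup.center ↥(Om Q))).Coprime p := by
  rw [Nat.coprime_comm, Nat.Prime.coprime_iff_not_dvd Fact.out]
  intro hdvd
  have : Finite V := Module.finite_of_finite F
  have : Finite (V ≃ₗ[F] V) := Finite.of_injective (fun g => (g : V → V)) DFunLike.coe_injective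
  obtain ⟨z, hz⟩ := exists_prime_orderOf_dvd_card' (G := Subgroup.center ↥(Om Q)) p hdvd
  have h1 : z.1 ^ p ^ 1 = 1 := by
    rw [pow_one, ← hz]
    have := pow_orderOf_eq_one z
    exact congrArg Subtype.val this
  have h2 := center_eq_one_of_pow p hQ hd z.2 h1
  have h3 : z = 1 := Subtype.ext h2
  rw [h3, orderOf_one] at hz
  exact (Fact.out : p.Prime).one_lt.ne hz

/-- the projection is injective on `p`-elements -/
lemma pr_inj_of_pow (hQ : (polarBilin Q).Nondegenerate) (hd : 7 ≤ finrank F V)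
    {g h : ↥(Om Q)} {k l : ℕ} (hg : g ^ p ^ k = 1) (hh : h ^ p ^ l = 1) (e : pr Q g = pr Q h) :
    g = h := by
  rw [pr_eq_iff] at e
  have hc : Commute g⁻¹ h := by
    have h1 := (Subgroup.mem_center_iff.1 e) g
    -- g * (g⁻¹ * h) = (g⁻¹ * h) * g
    have h2 : h * g = g * h := by
      have : g * (g⁻¹ * h * g) = g * (g * (g⁻¹ * h)) := by rw [h1]
      simpa [mul_assoc] using this
    have : Commute g h := h2.symm
    exact this.inv_left
  have h1 : (g⁻¹ * h) ^ p ^ (k + l) = 1 := by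
    rw [hc.mul_pow, inv_pow, pow_add, pow_mul, hg, one_pow, inv_one, one_mul, mul_comm (p ^ k),
      pow_mul, hh, one_pow]
  have := center_eq_one_of_pow p hQ hd e h1
  exact (inv_mul_eq_one.1 this)

end fin

end Cfsg.Agent.Lib.Helper95.AutO
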