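import Cfsg.Agent.Lib.Helper95.AutO.MainCore
import Cfsg.Agent.Lib.Helper62.AutOS1

set_option autoImplicit false

namespace Cfsg.Agent.Lib.Helper95.AutO

open QuadraticMap Module Cfsg.Agent.Lib.Helper49 Cfsg.Agent.Lib.Helper95

variable {F V : Type*} [Field F] [Fintype F] [AddCommGroup V] [Module F V] [FiniteDimensional F V]
  {Q : QuadraticForm F V}

/-- every automorphism of `PΩ(V)` is induced by a semisimilarity -/
theorem aut_main (hQ : (polarBilin Q).Nondegenerate) (hd : 7 ≤ finrank F V)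
    (hL : ∀ W : Submodule F V, (∀ x ∈ W, Q x = 0) → 2 * finrank F W = finrank F V →
      10 ≤ finrank F V) (α : PT Q ≃* PT Q) :
    ∃ (σ : F ≃+* F) (γ : V ≃+ V) (c : F), c ≠ 0 ∧
      (∀ (a : F) (x : V), γ (a • x) = σ a • γ x) ∧ (∀ x, Q (γ x) = c * σ (Q x)) ∧
      ∀ s s' : ↥(Om Q), (∀ x, s'.1.1 (γ x) = γ (s.1.1 x)) → α (pr Q s) = pr Q s' :=
  aut_main_core hQ hd (Cfsg.Agent.Lib.Helper62.permPts hQ hd hL) α

end Cfsg.Agent.Lib.Helper95.AutO
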