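import Cfsg.Agent.Lib.Helper95.AutO.Pt

set_option autoImplicit false
set_option linter.unusedSimpArgs false

/-! Intersections of point radicals, isometries fixing all singular points. -/

namespace Cfsg.Agent.Lib.Helper95.AutO

open QuadraticMap Module Cfsg.Agent.Lib.Helper49 Cfsg.Agent.Lib.Helper95

section geo

variable {F V : Type*} [Field F] [AddCommGroup V] [Module F V] {Q : QuadraticForm F V}

/-- the intersection of two distinct point radicals -/
theorem mem_QS_inf (hQ : (polarBilin Q).Nondegenerate) {e e' : V} (he : Q e = 0) (he0 : e ≠ 0)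
    (hne : ∀ c : F, e' ≠ c • e) {g : OG Q} (h1 : g ∈ QS Q e) (h2 : g ∈ QS Q e') :
    g = 1 ∨ (polar Q e e' = 0 ∧ ∃ c : F, g = si Q e (c • e')) := by
  obtain ⟨w, hw, rfl⟩ := exists_si_of_mem_QS hQ he0 he h1
  rw [mem_QS] at h2
  obtain ⟨h3, h4⟩ := h2
  by_cases hee : polar Q e e' = 0
  · right
    refine ⟨hee, ?_⟩
    have hne' : ∀ c : F, e ≠ c • e' := by
      intro c hc
      have hc0 : c ≠ 0 := by
        rintro rfl
        rw [zero_smul] at hc
        exact he0 hc
      apply hne c⁻¹
      rw [hc, smul_smul, inv_mul_cancel₀ hc0, one_smul]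
    obtain ⟨x, hx1, hx2⟩ := qsep1 hQ hne'
    obtain ⟨c, hc⟩ := h4 x (by rw [polar_comm]; exact hx1)
    rw [si_apply he hw, polar_comm Q e x, hx2] at hc
    refine ⟨c, ?_⟩
    have h5 : w = c • e' + (polar Q w x + Q w) • e := by
      have : x + (1 : F) • w - polar Q w x • e - (Q w * 1) • e - x = c • e' := by
        rw [hc]; abel
      have h6 : w - (c • e' + (polar Q w x + Q w) • e) = 0 := by
        rw [← this]; module
      exact sub_eq_zero.1 h6
    rw [h5, si_add_smul he (by rw [polar_smul_right, hee]; simp)]
  · left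
    rw [si_apply he hw] at h3
    rw [si_eq_one_iff hQ he he0 hw]
    refine ⟨(polar Q e e')⁻¹ * (polar Q w e' + Q w * polar Q e e'), ?_⟩
    have h5 : polar Q e e' • w = (polar Q w e' + Q w * polar Q e e') • e := by
      have : e' + polar Q e e' • w - polar Q w e' • e - (Q w * polar Q e e') • e - e' = 0 := by
        rw [h3, sub_self]
      have h6 : polar Q e e' • w - (polar Q w e' + Q w * polar Q e e') • e = 0 := by
        rw [← this]; module
      exact sub_eq_zero.1 h6
    rw [mul_smul, ← h5, smul_smul, inv_mul_cancel₀ hee, one_smul]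

/-- singular vectors not orthogonal to `e` -/
lemma si_apply_hyp {e f w : V} (he : Q e = 0) (hef : polar Q e f = 1) (hw : polar Q e w = 0)
    (hwf : polar Q w f = 0) : (si Q e w).1 f = f + w - Q w • e := by
  rw [si_apply he hw, hef, hwf]
  simp

lemma exists_si_map {e f x : V} (he : Q e = 0) (hf : Q f = 0) (hef : polar Q e f = 1)
    (hx : Q x = 0) (hex : polar Q e x = 1) :
    ∃ w, polar Q e w = 0 ∧ polar Q f w = 0 ∧ (si Q e w).1 f = x := by
  have hee : polar Q e e = 0 := polar_self_of_Q he
  have hff : polar Q f f = 0 := polar_self_of_Q hf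
  have hfe : polar Q f e = 1 := by rw [polar_comm]; exact hef
  have h1 : polar Q e (x - f - polar Q f x • e) = 0 := by
    rw [polar_sub_right, polar_sub_right, polar_smul_right, hex, hef, hee]; simp
  have h2 : polar Q f (x - f - polar Q f x • e) = 0 := by
    rw [polar_sub_right, polar_sub_right, polar_smul_right, hff, hfe]; simp
  refine ⟨x - f - polar Q f x • e, h1, h2, ?_⟩
  rw [si_apply_hyp he hef h1 (by rw [polar_comm]; exact h2)]
  have h3 : Q (x - f - polar Q f x • e) = - polar Q f x := by
    rw [qmap_sub, qmap_sub, QuadraticMap.map_smul, he, hx, hf, polar_sub_left, polar_smul_right,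
      polar_smul_right, hfe, polar_comm Q x e, hex, polar_comm Q x f]
    simp only [smul_eq_mul]
    ring
  rw [h3]
  module

end geo

section fin

variable {F V : Type*} [Field F] [Fintype F] [AddCommGroup V] [Module F V] [FiniteDimensional F V]
  {Q : QuadraticForm F V}

/-- an isometry fixing all singular points is a scalar -/
theorem scalar_of_fix_singular (hQ : (polarBilin Q).Nondegenerate) (hd : 7 ≤ finrank F V)
    (g : OG Q) (h : ∀ e, Q e = 0 → ∃ c : F, g.1 e = c • e) : ∃ c : F, ∀ x, g.1 x = c • x := by
  obtain ⟨e, f, he, hf, hef, -, -⟩ := qexists_hyp hQ (![] : Fin 0 → V) (by omega)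
  have hee : polar Q e e = 0 := polar_self_of_Q he
  have hff : polar Q f f = 0 := polar_self_of_Q hf
  have hfe : polar Q f e = 1 := by rw [polar_comm]; exact hef
  obtain ⟨a, ha⟩ := h e he
  obtain ⟨b, hb⟩ := h f hf
  have hab : a * b = 1 := by
    have := OG_polar Q g e f
    rw [ha, hb, polar_smul_left, polar_smul_right, hef] at this
    simpa using this
  have ha0 : a ≠ 0 := left_ne_zero_of_mul_eq_one hab
  have hb0 : b ≠ 0 := right_ne_zero_of_mul_eq_one hab
  have key : ∀ w, polar Q e w = 0 → polar Q f w = 0 →
      g.1 w = b • w ∧ Q w * (a - b) = 0 := by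
    intro w hew hfw
    have hs : Q (f + w - Q w • e) = 0 := by
      rw [qmap_sub, qmap_add, QuadraticMap.map_smul, he, hf, hfw, polar_add_left,
        polar_smul_right, polar_smul_right, hfe, polar_comm Q w e, hew]
      simp
    obtain ⟨l, hl⟩ := h _ hs
    rw [map_sub, map_add, map_smul, ha, hb] at hl
    have hgw : g.1 w = l • (f + w - Q w • e) - b • f + Q w • a • e := by
      rw [← hl]; abel
    have h1 : polar Q e (g.1 w) = 0 := by
      have := OG_polar Q g e w
      rw [ha, polar_smul_left, hew, smul_eq_mul] at this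
      exact (mul_eq_zero.1 this).resolve_left ha0
    have h2 : polar Q f (g.1 w) = 0 := by
      have := OG_polar Q g f w
      rw [hb, polar_smul_left, hfw, smul_eq_mul] at this
      exact (mul_eq_zero.1 this).resolve_left hb0
    rw [hgw] at h1 h2
    simp only [polar_add_right, polar_sub_right, polar_smul_right, hee, hef, hew, hff, hfe, hfw,
      smul_eq_mul, mul_zero, mul_one, add_zero, sub_zero, zero_sub, zero_add] at h1 h2
    have hlb : l = b := by linear_combination h1
    subst hlb
    have h3 : Q w * (a - l) = 0 := by linear_combination h2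
    refine ⟨?_, h3⟩
    rw [hgw]
    have : l • (f + w - Q w • e) - l • f + Q w • a • e = l • w + (Q w * (a - l)) • e := by module
    rw [this, h3, zero_smul, add_zero]
  obtain ⟨w₀, hw₀, hQw₀⟩ := qexists_perp_nonsing Q hQ ![e, f] (by omega)
  have hab' : a = b := by
    have := (key w₀ (by rw [polar_comm]; exact hw₀ 0) (by rw [polar_comm]; exact hw₀ 1)).2
    exact sub_eq_zero.1 ((mul_eq_zero.1 this).resolve_left hQw₀)
  refine ⟨b, fun x => ?_⟩
  have h1 : polar Q e (x - polar Q f x • e - polar Q e x • f) = 0 := by
    rw [polar_sub_right, polar_sub_right, polar_smul_right, polar_smul_right, hee, hef]; simp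
  have h2 : polar Q f (x - polar Q f x • e - polar Q e x • f) = 0 := by
    rw [polar_sub_right, polar_sub_right, polar_smul_right, polar_smul_right, hff, hfe]; simp
  have h3 := (key _ h1 h2).1
  rw [map_sub, map_sub, map_smul, map_smul, ha, hb, hab'] at h3
  have : g.1 x = b • (x - polar Q f x • e - polar Q e x • f) + polar Q f x • b • e
      + polar Q e x • b • f := by rw [← h3]; abel
  rw [this]
  module

end fin

end Cfsg.Agent.Lib.Helper95.AutO
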