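import Cfsg.Agent.Lib.Helper95.AutO.Perm
import Cfsg.Agent.Lib.Helper74.AutOSemiB
import Cfsg.Agent.Lib.Helper74.AutOConj
import Cfsg.Agent.Lib.Helper74.AutOGamma
import Cfsg.Agent.Lib.Helper74.AutOPhi
import Cfsg.Agent.Lib.Helper75.AutONorm
import Cfsg.Agent.Lib.Helper75.AutOFinal
import Cfsg.Agent.Lib.Helper49.Perp2

set_option autoImplicit false

namespace Cfsg.Agent.Lib.Helper95.AutO

open QuadraticMap Module Cfsg.Agent.Lib.Helper49 Cfsg.Agent.Lib.Helper95
open Cfsg.Agent.Lib.Helper74.AutO Cfsg.Agent.Lib.Helper75.AutOPts Cfsg.Agent.Lib.Helper75.AutOFinal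

variable {F V : Type*} [Field F] [Fintype F] [AddCommGroup V] [Module F V] [FiniteDimensional F V]
  {Q : QuadraticForm F V}

/-- every automorphism of `PΩ(V)` is induced by a semisimilarity -/
theorem aut_main_core (hQ : (polarBilin Q).Nondegenerate) (hd : 7 ≤ finrank F V)
    (P : ∀ β : PT Q ≃* PT Q, PermPts Q β) (α : PT Q ≃* PT Q) :
    ∃ (σ : F ≃+* F) (γ : V ≃+ V) (c : F), c ≠ 0 ∧
      (∀ (a : F) (x : V), γ (a • x) = σ a • γ x) ∧ (∀ x, Q (γ x) = c * σ (Q x)) ∧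
      ∀ s s' : ↥(Om Q), (∀ x, s'.1.1 (γ x) = γ (s.1.1 x)) → α (pr Q s) = pr Q s' := by
  obtain ⟨e, f, he, hf, hef, -, -⟩ := qexists_hyp hQ (![] : Fin 0 → V) (by omega)
  have hee : polar Q e e = 0 := polar_self_of_Q he
  have hff : polar Q f f = 0 := polar_self_of_Q hf
  have hfe : polar Q f e = 1 := by rw [polar_comm]; exact hef
  obtain ⟨g, hg1, hg2⟩ := exists_normalise hQ hd α (P α) he hf hef
  obtain ⟨φ, hφ⟩ := exists_phi hQ hd (α.trans (MulAut.conj (pr Q g))) he hf hef hg1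
  obtain ⟨p1, p2, p3⟩ := phi_props hQ hd (α.trans (MulAut.conj (pr Q g))) (P _) (P _) he hf hef
    hg1 φ hφ
  have hnd := resQ_perp2_nondegenerate Q hQ hee hff hef
  have hfr := finrank_perp2 Q hee hef
  obtain ⟨σ, hσ⟩ := semilinear_of_singular (resQ Q (perp2 Q e f)) hnd (by omega) φ p1 p2 p3
  obtain ⟨c, hc, hcq⟩ := semisimilar_of_singular (resQ Q (perp2 Q e f)) hnd (by omega) φ σ hσ p1
  obtain ⟨γ, g1, g2, g3, g4, g5⟩ := exists_gamma he hf hef φ σ c hc hσ (fun w => hcq w)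
  obtain ⟨κ, k1, k2, k3⟩ := exists_aut_of_semisim hQ hd σ γ c hc g1 g2
  have he0 : e ≠ 0 := by
    rintro rfl
    simp at hef
  have hf0 : f ≠ 0 := by
    rintro rfl
    simp at hef
  have hακ : α.trans (MulAut.conj (pr Q g)) = κ := by
    apply eq_of_agree hQ hd _ κ (P _) (P _) (P κ) he hf hef
    · intro w hw
      -- reduce to the component in `perp2`
      have hw1 : w - polar Q f w • e ∈ perp2 Q e f := by
        rw [mem_perp2]
        constructor
        · rw [polar_sub_right, polar_smul_right, hw, hee]; simp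
        · rw [polar_sub_right, polar_smul_right, hfe]; simp
      have hw1e : polar Q e (w - polar Q f w • e) = 0 := ((mem_perp2 Q).1 hw1).1
      have e1 : sb hQ hd e w = sb hQ hd e (w - polar Q f w • e) := by
        rw [sb_eq_sb_iff hQ hd he he0 hw hw1e]
        exact ⟨polar Q f w, by abel⟩
      rw [e1, hφ ⟨_, hw1⟩, k2 e _ he hw1e, g3, g5 ⟨_, hw1⟩]
      have hφe : polar Q e (φ ⟨_, hw1⟩ : V) = 0 := ((mem_perp2 Q).1 (φ ⟨_, hw1⟩).2).1
      rw [sb, sb]
      congr 1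
      apply Subtype.ext
      change si Q e _ = si Q (c • e) _
      rw [si_smul_left he (by rw [polar_smul_right, hφe]; simp), smul_smul, mul_inv_cancel₀ hc,
        one_smul]
    · rw [hg2, k3 f hf0 hf, g4]
  -- the answer is `g⁻¹ ∘ γ`
  refine ⟨σ, γ.trans ((g⁻¹).1.1.toAddEquiv), c, hc, ?_, ?_, ?_⟩
  · intro a x
    change (g⁻¹).1.1 (γ (a • x)) = σ a • (g⁻¹).1.1 (γ x)
    rw [g1, map_smul]
  · intro x
    change Q ((g⁻¹).1.1 (γ x)) = _
    rw [OG_apply, g2]
  · intro s s' hss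
    have h1 : κ (pr Q s) = pr Q (g * s' * g⁻¹) := by
      apply k1
      intro x
      have := hss x
      change s'.1.1 ((g⁻¹).1.1 (γ x)) = (g⁻¹).1.1 (γ (s.1.1 x)) at this
      change g.1.1 (s'.1.1 ((g⁻¹).1.1 (γ x))) = _
      rw [this]
      exact OG_apply_inv_apply g.1 _
    rw [← hακ] at h1
    change pr Q g * α (pr Q s) * (pr Q g)⁻¹ = _ at h1
    rw [map_mul, map_mul, map_inv] at h1
    exact mul_left_cancel (mul_right_cancel h1)

end Cfsg.Agent.Lib.Helper95.AutO
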