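import Cfsg.Agent.Lib.Helper95.AutO.Proj2

set_option autoImplicit false

namespace Cfsg.Agent.Lib.Helper95.AutO

open QuadraticMap Module Cfsg.Agent.Lib.Helper49 Cfsg.Agent.Lib.Helper95

variable {F V : Type*} [Field F] [AddCommGroup V] [Module F V]

/-- the automorphism `α` of `PΩ` permutes the images of the radicals of singular points -/
def PermPts (Q : QuadraticForm F V) (α : PT Q ≃* PT Q) : Prop :=
  ∀ e : V, e ≠ 0 → Q e = 0 →
    ∃ e', e' ≠ 0 ∧ Q e' = 0 ∧ (img Q (QS Q e)).map α.toMonoidHom = img Q (QS Q e')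

end Cfsg.Agent.Lib.Helper95.AutO
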