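import Cfsg.Agent.Lib.Helper95.AutO.Proj

set_option autoImplicit false
set_option linter.unusedSimpArgs false

/-! Images of radicals and stabilisers in `PΩ`. -/

namespace Cfsg.Agent.Lib.Helper95.AutO

open QuadraticMap Module Cfsg.Agent.Lib.Helper49 Cfsg.Agent.Lib.Helper95

section fin

variable {F V : Type*} [Field F] [Fintype F] [AddCommGroup V] [Module F V] [FiniteDimensional F V]
  {Q : QuadraticForm F V}

/-- the image of a Siegel transformation in `PΩ` -/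
noncomputable def sb (hQ : (polarBilin Q).Nondegenerate) (hd : 7 ≤ finrank F V) (e w : V) : PT Q :=
  pr Q ⟨si Q e w, si_mem_commutator hQ (by omega) e w⟩

variable (hQ : (polarBilin Q).Nondegenerate) (hd : 7 ≤ finrank F V)

lemma mem_img_QS_iff {e : V} (he0 : e ≠ 0) (he : Q e = 0) {t : PT Q} :
    t ∈ img Q (QS Q e) ↔ ∃ w, polar Q e w = 0 ∧ t = sb hQ hd e w := by
  rw [mem_img]
  constructor
  · rintro ⟨g, hg, rfl⟩
    obtain ⟨w, hw, h⟩ := exists_si_of_mem_QS hQ he0 he hg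
    refine ⟨w, hw, ?_⟩
    rw [sb]
    congr 1
    exact Subtype.ext h
  · rintro ⟨w, hw, rfl⟩
    exact ⟨_, si_mem_QS he hw, rfl⟩

lemma sb_mem {e w : V} (he : Q e = 0) (hw : polar Q e w = 0) :
    sb hQ hd e w ∈ img Q (QS Q e) := pr_mem_img (si_mem_QS he hw)

lemma sb_mul {e w w' : V} (he : Q e = 0) (hw : polar Q e w = 0) (hw' : polar Q e w' = 0) :
    sb hQ hd e w * sb hQ hd e w' = sb hQ hd e (w + w') := by
  rw [sb, sb, sb, ← map_mul]
  congr 1
  exact Subtype.ext (si_mul he hw hw')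

lemma sb_conj (e w : V) (g : ↥(Om Q)) :
    pr Q g * sb hQ hd e w * (pr Q g)⁻¹ = sb hQ hd (g.1.1 e) (g.1.1 w) := by
  rw [sb, sb, ← map_inv, ← map_mul, ← map_mul]
  congr 1
  exact Subtype.ext (si_conj e w g.1)

variable (p : ℕ) [Fact p.Prime] [CharP F p]

omit [Fintype F] [FiniteDimensional F V] in
lemma exists_pow_of_mem_QW {W : Submodule F V} {g : ↥(Om Q)} (hg : g.1 ∈ QW Q W) :
    ∃ k : ℕ, g ^ p ^ k = 1 := by
  obtain ⟨k, hk⟩ := isPGroup_QW (Q := Q) p W ⟨g.1, hg⟩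
  refine ⟨k, ?_⟩
  apply Subtype.ext
  have h := congrArg Subtype.val hk
  rw [Subgroup.coe_pow] at h
  rw [Subgroup.coe_pow]
  exact h

omit [Fintype F] [FiniteDimensional F V] in
lemma isPGroup_img_QW (W : Submodule F V) : IsPGroup p (img Q (QW Q W)) :=
  ((isPGroup_QW (Q := Q) p W).comap_subtype).map _

include hQ hd in
/-- an element of two images of radicals comes from a common element -/
lemma mem_img_QW_inf {W W' : Submodule F V} {t : PT Q} (h1 : t ∈ img Q (QW Q W))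
    (h2 : t ∈ img Q (QW Q W')) : ∃ g : ↥(Om Q), g.1 ∈ QW Q W ∧ g.1 ∈ QW Q W' ∧ pr Q g = t := by
  obtain ⟨p, hp⟩ := CharP.exists F
  have : Fact p.Prime := ⟨CharP.char_is_prime F p⟩
  obtain ⟨g, hg, rfl⟩ := mem_img.1 h1
  obtain ⟨g', hg', e⟩ := mem_img.1 h2
  obtain ⟨k, hk⟩ := exists_pow_of_mem_QW p hg
  obtain ⟨l, hl⟩ := exists_pow_of_mem_QW p hg'
  have := pr_inj_of_pow p hQ hd hl hk e
  subst this
  exact ⟨g', hg, hg', rfl⟩

lemma sb_eq_sb_iff {e w w' : V} (he : Q e = 0) (he0 : e ≠ 0) (hw : polar Q e w = 0)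
    (hw' : polar Q e w' = 0) : sb hQ hd e w = sb hQ hd e w' ↔ ∃ c : F, w = w' + c • e := by
  obtain ⟨p, hp⟩ := CharP.exists F
  have : Fact p.Prime := ⟨CharP.char_is_prime F p⟩
  rw [← si_eq_si_iff hQ he he0 hw hw']
  constructor
  · intro h
    obtain ⟨k, hk⟩ := exists_pow_of_mem_QW p (W := Submodule.span F {e})
      (g := ⟨si Q e w, si_mem_commutator hQ (by omega) e w⟩) (si_mem_QS he hw)
    obtain ⟨l, hl⟩ := exists_pow_of_mem_QW p (W := Submodule.span F {e})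
      (g := ⟨si Q e w', si_mem_commutator hQ (by omega) e w'⟩) (si_mem_QS he hw')
    exact congrArg Subtype.val (pr_inj_of_pow p hQ hd hk hl h)
  · intro h
    rw [sb, sb]
    congr 1
    exact Subtype.ext h

lemma sb_eq_one_iff {e w : V} (he : Q e = 0) (he0 : e ≠ 0) (hw : polar Q e w = 0) :
    sb hQ hd e w = 1 ↔ ∃ c : F, w = c • e := by
  have h0 : sb hQ hd e 0 = 1 := by
    rw [sb]
    have : (⟨si Q e 0, si_mem_commutator hQ (by omega) e 0⟩ : ↥(Om Q)) = 1 :=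
      Subtype.ext (si_zero e)
    rw [this, map_one]
  rw [← h0, sb_eq_sb_iff hQ hd he he0 hw (by simp)]
  simp

/-- intersection of the images of two point radicals -/
lemma mem_img_QS_inf {e e' : V} (he : Q e = 0) (he0 : e ≠ 0) (hne : ∀ c : F, e' ≠ c • e)
    {t : PT Q} (h1 : t ∈ img Q (QS Q e)) (h2 : t ∈ img Q (QS Q e')) :
    t = 1 ∨ (polar Q e e' = 0 ∧ ∃ c : F, t = sb hQ hd e (c • e')) := by
  obtain ⟨g, hg, hg', rfl⟩ := mem_img_QW_inf hQ hd h1 h2
  rcases mem_QS_inf hQ he he0 hne hg hg' with h | ⟨h, c, hc⟩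
  · left
    have : g = 1 := Subtype.ext h
    rw [this, map_one]
  · right
    refine ⟨h, c, ?_⟩
    rw [sb]
    congr 1
    exact Subtype.ext hc

omit [Fintype F] [FiniteDimensional F V] in
lemma conj_mem_img_QW {W : Submodule F V} {t : PT Q} (ht : t ∈ img Q (QW Q W)) (g : ↥(Om Q)) :
    pr Q g * t * (pr Q g)⁻¹ ∈ img Q (QW Q (W.map (g.1.1 : V →ₗ[F] V))) := by
  obtain ⟨h, hh, rfl⟩ := mem_img.1 ht
  rw [← map_inv, ← map_mul, ← map_mul]
  exact pr_mem_img (conj_mem_QW hh g.1)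

omit [Fintype F] [FiniteDimensional F V] in
lemma conj_mem_img_QS {e : V} {t : PT Q} (ht : t ∈ img Q (QS Q e)) (g : ↥(Om Q)) :
    pr Q g * t * (pr Q g)⁻¹ ∈ img Q (QS Q (g.1.1 e)) := by
  obtain ⟨h, hh, rfl⟩ := mem_img.1 ht
  rw [← map_inv, ← map_mul, ← map_mul]
  exact pr_mem_img (conj_mem_QS hh g.1)

include hQ hd in
/-- stabilisers are saturated -/
lemma pr_mem_img_stab_iff {W : Submodule F V} {g : ↥(Om Q)} :
    pr Q g ∈ img Q (stabSub Q W) ↔ g.1 ∈ stabSub Q W := by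
  constructor
  · intro h
    obtain ⟨g', hg', e⟩ := mem_img.1 h
    rw [pr_eq_iff] at e
    obtain ⟨c, hc⟩ := center_scalar hQ hd e
    apply mem_stabSub_of_forall
    intro x hx
    have h1 : g.1.1 x = g'.1.1 ((g'⁻¹ * g).1.1 x) := by
      change g.1.1 x = (g' * (g'⁻¹ * g)).1.1 x
      rw [mul_inv_cancel_left]
    rw [h1, hc, map_smul]
    exact W.smul_mem _ (stabSub_apply_mem hg' hx)
  · exact pr_mem_img

omit [Fintype F] [FiniteDimensional F V] in
/-- the image of the stabiliser normalises the image of the radical -/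
lemma img_stab_le_normalizer (W : Submodule F V) :
    img Q (stabSub Q W) ≤ Subgroup.normalizer (img Q (QW Q W) : Set (PT Q)) := by
  have key : ∀ g : ↥(Om Q), g.1 ∈ stabSub Q W → ∀ t ∈ img Q (QW Q W),
      pr Q g * t * (pr Q g)⁻¹ ∈ img Q (QW Q W) := by
    intro g hg t ht
    have := conj_mem_img_QW ht g
    rwa [(mem_stabSub Q).1 hg] at this
  intro s hs
  obtain ⟨g, hg, rfl⟩ := mem_img.1 hs
  rw [Subgroup.mem_normalizer_iff]
  intro t
  refine ⟨key g hg t, fun h => ?_⟩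
  have := key g⁻¹ (Subgroup.inv_mem _ hg) _ h
  rw [map_inv] at this
  simpa [mul_assoc] using this

end fin

end Cfsg.Agent.Lib.Helper95.AutO
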