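import Cfsg.Agent.Lib.Helper95.AutO.Rad

set_option autoImplicit false
set_option linter.unusedSimpArgs false

/-! The radical `QS e` of a singular point. -/

namespace Cfsg.Agent.Lib.Helper95.AutO

open QuadraticMap Module Cfsg.Agent.Lib.Helper49 Cfsg.Agent.Lib.Helper95

section pt

variable {F V : Type*} [Field F] [AddCommGroup V] [Module F V] {Q : QuadraticForm F V}

variable (Q) in
/-- the radical of the stabiliser of the point `⟨e⟩` -/
def QS (e : V) : Subgroup (OG Q) := QW Q (Submodule.span F {e})

lemma mem_QS {e : V} {g : OG Q} : g ∈ QS Q e ↔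
    g.1 e = e ∧ ∀ x, polar Q e x = 0 → ∃ c : F, g.1 x = x + c • e := by
  rw [QS, mem_QW]
  constructor
  · rintro ⟨h1, h2⟩
    refine ⟨h1 e (Submodule.mem_span_singleton_self e), fun x hx => ?_⟩
    have := h2 x (by
      intro w hw
      obtain ⟨c, rfl⟩ := Submodule.mem_span_singleton.1 hw
      rw [polar_smul_left, hx]; simp)
    obtain ⟨c, hc⟩ := Submodule.mem_span_singleton.1 this
    exact ⟨c, by rw [hc]; abel⟩
  · rintro ⟨h1, h2⟩
    refine ⟨fun x hx => ?_, fun x hx => ?_⟩
    · obtain ⟨c, rfl⟩ := Submodule.mem_span_singleton.1 hx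
      rw [map_smul, h1]
    · obtain ⟨c, hc⟩ := h2 x (hx e (Submodule.mem_span_singleton_self e))
      rw [hc, add_sub_cancel_left]
      exact Submodule.smul_mem _ _ (Submodule.mem_span_singleton_self e)

lemma si_mem_QS {e w : V} (he : Q e = 0) (hw : polar Q e w = 0) : si Q e w ∈ QS Q e := by
  rw [mem_QS]
  refine ⟨si_fix_self he hw, fun x hx => ⟨-polar Q w x, ?_⟩⟩
  rw [si_apply_perp he hw hx, neg_smul, sub_eq_add_neg]

/-- the kernel lemma -/
lemma exists_si_of_mem_QS (hQ : (polarBilin Q).Nondegenerate) {e : V} (he0 : e ≠ 0)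
    (he : Q e = 0) {g : OG Q} (hg : g ∈ QS Q e) : ∃ w, polar Q e w = 0 ∧ g = si Q e w := by
  rw [mem_QS] at hg
  obtain ⟨h1, h2⟩ := hg
  obtain ⟨f, hf⟩ := qexists_dual Q hQ he0
  have hee : polar Q e e = 0 := polar_self_of_Q he
  have hw : polar Q e (g.1 f - f) = 0 := by
    rw [polar_sub_right]
    nth_rewrite 1 [← h1]
    rw [OG_polar, sub_self]
  refine ⟨g.1 f - f, hw, ?_⟩
  set w := g.1 f - f with hwdef
  have hgf : g.1 f = f + w := by rw [hwdef]; abel
  have hQw : Q w + polar Q f w = 0 := by
    have := OG_apply Q g f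
    rw [hgf, qmap_add] at this
    linear_combination this
  have hperp : ∀ x, polar Q e x = 0 → g.1 x = (si Q e w).1 x := by
    intro x hx
    obtain ⟨c, hc⟩ := h2 x hx
    rw [si_apply_perp he hw hx, hc]
    have h3 := OG_polar Q g x f
    rw [hc, hgf, polar_add_left, polar_add_right, polar_add_right, polar_smul_left,
      polar_smul_left, hf, hw] at h3
    have h4 : c = - polar Q w x := by
      rw [polar_comm Q w x]
      simp only [smul_eq_mul, mul_one, mul_zero, add_zero] at h3
      linear_combination h3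
    rw [h4, neg_smul, sub_eq_add_neg]
  have hf' : g.1 f = (si Q e w).1 f := by
    rw [si_apply he hw, hf, hgf, polar_comm Q w f]
    have : polar Q f w = - Q w := by linear_combination hQw
    rw [this]
    module
  apply OG_ext
  intro x
  have hx : polar Q e (x - polar Q e x • f) = 0 := by
    rw [polar_sub_right, polar_smul_right, hf]; simp
  have := hperp _ hx
  rw [map_sub, map_sub, map_smul, map_smul, hf'] at this
  exact sub_left_injective this

lemma mem_QS_iff (hQ : (polarBilin Q).Nondegenerate) {e : V} (he0 : e ≠ 0)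
    (he : Q e = 0) {g : OG Q} : g ∈ QS Q e ↔ ∃ w, polar Q e w = 0 ∧ g = si Q e w :=
  ⟨exists_si_of_mem_QS hQ he0 he, by rintro ⟨w, hw, rfl⟩; exact si_mem_QS he hw⟩

lemma QS_smul {e : V} {c : F} (hc : c ≠ 0) : QS Q (c • e) = QS Q e := by
  rw [QS, QS, Submodule.span_singleton_smul_eq (IsUnit.mk0 c hc)]

lemma conj_mem_QS {e : V} {h : OG Q} (hh : h ∈ QS Q e) (g : OG Q) :
    g * h * g⁻¹ ∈ QS Q (g.1 e) := by
  have := conj_mem_QW hh g
  rw [Submodule.map_span, Set.image_singleton] at this
  exact this

/-- the Siegel transformation for a non-singular `w` is a product of two reflections -/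
lemma si_eq_refl_mul_refl {e w : V} (he : Q e = 0) (hw : polar Q e w = 0) (hQw : Q w ≠ 0) :
    si Q e w = refl Q w * refl Q (w + Q w • e) := by
  have hee : polar Q e e = 0 := polar_self_of_Q he
  have hwe : polar Q w e = 0 := by rw [polar_comm]; exact hw
  have h1 : Q (w + Q w • e) = Q w := by
    rw [qmap_add, QuadraticMap.map_smul, he, polar_smul_right, hwe]; simp
  have hww : polar Q w w = 2 * Q w := by rw [polar_self]; simp
  apply OG_ext
  intro x
  rw [si_apply he hw, Subgroup.coe_mul, LinearEquiv.mul_apply, refl_coe_apply, refl_coe_apply,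
    reflLin_apply Q (w + Q w • e), h1, reflLin_apply, polar_sub_right, polar_smul_right,
    polar_add_left, polar_add_right, polar_smul_left, polar_smul_right, hww, hwe]
  simp only [smul_eq_mul, mul_zero, add_zero]
  obtain ⟨u, hu⟩ : ∃ u, polar Q w x = u * Q w := ⟨polar Q w x / Q w, by field_simp⟩
  rw [hu]
  have ht : (Q w)⁻¹ * (u * Q w + Q w * polar Q e x) = u + polar Q e x := by field_simp
  have hs : (Q w)⁻¹ * (u * Q w - (u + polar Q e x) * (2 * Q w)) = - u - 2 * polar Q e x := by
    field_simp; ring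
  rw [ht, hs]
  module

end pt

section fin

variable {F V : Type*} [Field F] [Fintype F] [AddCommGroup V] [Module F V] [FiniteDimensional F V]
  {Q : QuadraticForm F V}

theorem si_mem_commutator (hQ : (polarBilin Q).Nondegenerate) (hd : 5 ≤ finrank F V) (e w : V) :
    si Q e w ∈ commutator (OG Q) := by
  by_cases h : Q e = 0 ∧ polar Q e w = 0
  swap
  · rw [si, dif_neg h]; exact Subgroup.one_mem _
  obtain ⟨he, hw⟩ := h
  have hee : polar Q e e = 0 := polar_self_of_Q he
  have key : ∀ w, polar Q e w = 0 → Q w ≠ 0 → si Q e w ∈ commutator (OG Q) := by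
    intro w hw hQw
    have hwe : polar Q w e = 0 := by rw [polar_comm]; exact hw
    rw [si_eq_refl_mul_refl he hw hQw]
    apply refl_mul_refl_mem_commutator_of_eq Q hQ _ _ hQw
    rw [qmap_add, QuadraticMap.map_smul, he, polar_smul_right, hwe]; simp
  by_cases hQw : Q w = 0
  · obtain ⟨a, ha, hQa⟩ := qexists_perp_nonsing Q hQ ![e, w] (by omega)
    have hae : polar Q e a = 0 := by rw [polar_comm]; exact ha 0
    have haw : polar Q a w = 0 := ha 1
    have h1 : polar Q e (w - a) = 0 := by rw [polar_sub_right, hw, hae, sub_zero]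
    have h2 : Q (w - a) ≠ 0 := by
      rw [qmap_sub, hQw, polar_comm, haw]; simpa using hQa
    have h3 := si_mul he h1 hae
    rw [sub_add_cancel] at h3
    rw [← h3]
    exact Subgroup.mul_mem _ (key _ h1 h2) (key _ hae hQa)
  · exact key w hw hQw

end fin

end Cfsg.Agent.Lib.Helper95.AutO
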