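import Cfsg.Agent.Lib.Helper95.AutO.Sieg
import Cfsg.Agent.Lib.Helper49.OmegaTrans
import Cfsg.Agent.Lib.Helper49.WittUse

set_option autoImplicit false
set_option linter.unusedSimpArgs false

/-! Unipotent radicals of stabilisers of totally singular subspaces. -/

namespace Cfsg.Agent.Lib.Helper95.AutO

open QuadraticMap Module Cfsg.Agent.Lib.Helper49 Cfsg.Agent.Lib.Helper95

section rad

variable {F V : Type*} [Field F] [AddCommGroup V] [Module F V] (Q : QuadraticForm F V)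

/-- the isometries acting trivially on `W` and on `W^⊥ / W` -/
def QW (W : Submodule F V) : Subgroup (OG Q) where
  carrier := {g | (∀ x ∈ W, g.1 x = x) ∧ ∀ x, (∀ w ∈ W, polar Q w x = 0) → g.1 x - x ∈ W}
  one_mem' := ⟨fun x _ => rfl, fun x _ => by
    change x - x ∈ W
    rw [sub_self]; exact W.zero_mem⟩
  mul_mem' {a b} ha hb := by
    refine ⟨fun x hx => ?_, fun x hx => ?_⟩
    · rw [Subgroup.coe_mul, LinearEquiv.mul_apply, hb.1 x hx, ha.1 x hx]
    · rw [Subgroup.coe_mul, LinearEquiv.mul_apply]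
      have h1 := hb.2 x hx
      have h2 := ha.1 _ h1
      have h3 : a.1 (b.1 x) - x = (b.1 x - x) + (a.1 x - x) := by
        rw [map_sub] at h2
        have : a.1 (b.1 x) = b.1 x - x + a.1 x := by rw [← h2]; abel
        rw [this]; abel
      rw [h3]
      exact W.add_mem h1 (ha.2 x hx)
  inv_mem' {a} ha := by
    have hfix : ∀ x ∈ W, (a⁻¹).1 x = x := by
      intro x hx
      have h0 : (a⁻¹ * a).1 x = x := by rw [inv_mul_cancel]; rfl
      rw [Subgroup.coe_mul, LinearEquiv.mul_apply, ha.1 x hx] at h0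
      exact h0
    refine ⟨hfix, fun x hx => ?_⟩
    have h1 := ha.2 x hx
    have h2 := hfix _ h1
    rw [map_sub] at h2
    have h3 : (a⁻¹).1 (a.1 x) = x := by
      have h0 : (a⁻¹ * a).1 x = x := by rw [inv_mul_cancel]; rfl
      exact h0
    rw [h3] at h2
    have : (a⁻¹).1 x - x = -(a.1 x - x) := by
      have : (a⁻¹).1 x = x - (a.1 x - x) := by rw [← h2]; abel
      rw [this]; abel
    rw [this]
    exact W.neg_mem h1

variable {Q}

lemma mem_QW {W : Submodule F V} {g : OG Q} : g ∈ QW Q W ↔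
    (∀ x ∈ W, g.1 x = x) ∧ ∀ x, (∀ w ∈ W, polar Q w x = 0) → g.1 x - x ∈ W := Iff.rfl

lemma OG_inv_apply_apply (g : OG Q) (x : V) : (g⁻¹).1 (g.1 x) = x := by
  have h0 : (g⁻¹ * g).1 x = x := by rw [inv_mul_cancel]; rfl
  exact h0

lemma OG_apply_inv_apply (g : OG Q) (x : V) : g.1 ((g⁻¹).1 x) = x := by
  have h0 : (g * g⁻¹).1 x = x := by rw [mul_inv_cancel]; rfl
  exact h0

lemma stabSub_apply_mem {W : Submodule F V} {g : OG Q} (hg : g ∈ stabSub Q W) {x : V}
    (hx : x ∈ W) : g.1 x ∈ W := by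
  rw [mem_stabSub] at hg
  rw [← hg]
  exact ⟨x, hx, rfl⟩

/-- conjugation: `g (QW W) g⁻¹ = QW (g W)` -/
lemma conj_mem_QW {W : Submodule F V} {h : OG Q} (hh : h ∈ QW Q W) (g : OG Q) :
    g * h * g⁻¹ ∈ QW Q (W.map (g.1 : V →ₗ[F] V)) := by
  refine ⟨?_, ?_⟩
  · rintro _ ⟨x, hx, rfl⟩
    simp only [Subgroup.coe_mul, LinearEquiv.mul_apply]
    change g.1 (h.1 ((g⁻¹).1 (g.1 x))) = g.1 x
    rw [OG_inv_apply_apply, hh.1 x hx]
  · intro x hx
    simp only [Subgroup.coe_mul, LinearEquiv.mul_apply]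
    have h1 : ∀ w ∈ W, polar Q w ((g⁻¹).1 x) = 0 := by
      intro w hw
      rw [← OG_polar Q g, OG_apply_inv_apply]
      exact hx _ ⟨w, hw, rfl⟩
    refine ⟨h.1 ((g⁻¹).1 x) - (g⁻¹).1 x, hh.2 _ h1, ?_⟩
    change g.1 (h.1 ((g⁻¹).1 x) - (g⁻¹).1 x) = _
    rw [map_sub, OG_apply_inv_apply]

lemma conj_mem_QW_of_stab {W : Submodule F V} {h g : OG Q} (hh : h ∈ QW Q W)
    (hg : g ∈ stabSub Q W) : g * h * g⁻¹ ∈ QW Q W := by
  have := conj_mem_QW hh g
  rwa [(mem_stabSub Q).1 hg] at this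

/-- Siegel transformations in the radical -/
lemma si_mem_QW {W : Submodule F V} (hW : ∀ x ∈ W, Q x = 0) {u w : V} (hu : u ∈ W)
    (hw : ∀ x ∈ W, polar Q x w = 0) : si Q u w ∈ QW Q W := by
  have hpol : ∀ x ∈ W, ∀ y ∈ W, polar Q x y = 0 := by
    intro x hx y hy
    rw [polar, hW _ (W.add_mem hx hy), hW x hx, hW y hy]; simp
  have h1 := hW u hu
  have h2 := hw u hu
  refine ⟨fun x hx => ?_, fun x hx => ?_⟩
  · rw [si_apply h1 h2, hpol u hu x hx, polar_comm, hw x hx]; simp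
  · rw [si_apply h1 h2, hx u hu]
    simp only [zero_smul, mul_zero, add_zero, sub_zero, sub_sub_cancel_left]
    exact W.neg_mem (W.smul_mem _ hu)

lemma polar_sub_mem_perp {W : Submodule F V} {g : OG Q} (hg : g ∈ QW Q W) (x : V) :
    ∀ w ∈ W, polar Q w (g.1 x - x) = 0 := by
  intro w hw
  rw [polar_sub_right]
  nth_rewrite 1 [← hg.1 w hw]
  rw [OG_polar, sub_self]

lemma isPGroup_QW (p : ℕ) [Fact p.Prime] [CharP F p] (W : Submodule F V) :
    IsPGroup p (QW Q W) := by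
  rintro ⟨g, hg⟩
  refine ⟨2, ?_⟩
  rcases subsingleton_or_nontrivial V with hV | hV
  · apply Subtype.ext
    apply OG_ext
    intro x
    exact Subsingleton.elim _ _
  have : CharP (Module.End F V) p :=
    charP_of_injective_algebraMap (algebraMap F (Module.End F V)).injective p
  let G : Module.End F V := (g.1 : V →ₗ[F] V)
  have hN : (G - 1) ^ 3 = 0 := by
    ext x
    have h1 := polar_sub_mem_perp hg x
    have h2 := hg.2 _ h1
    have h3 := hg.1 _ h2
    have e1 : ((G - 1) ^ 3 : Module.End F V) x = (G - 1) ((G - 1) ((G - 1) x)) := by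
      rw [pow_succ, pow_succ, pow_one]; rfl
    rw [e1]
    change g.1 (g.1 (g.1 x - x) - (g.1 x - x)) - (g.1 (g.1 x - x) - (g.1 x - x)) = 0
    rw [h3, sub_self]
  have hp : 3 ≤ p ^ 2 := by
    have := (Fact.out : p.Prime).two_le
    nlinarith
  have hG : G ^ p ^ 2 = 1 := by
    have h1 : G = (G - 1) + 1 := by abel
    rw [h1, add_pow_char_pow_of_commute _ _ (Commute.one_right _), one_pow,
      pow_eq_zero_of_le hp hN, zero_add]
  apply Subtype.ext
  apply OG_ext
  intro x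
  have h2 : ∀ k : ℕ, ((g ^ k : OG Q)).1 x = (G ^ k) x := by
    intro k
    induction k generalizing x with
    | zero => rfl
    | succ k ih =>
      rw [pow_succ, pow_succ, Subgroup.coe_mul, LinearEquiv.mul_apply, ih]
      rfl
  change ((g ^ p ^ 2 : OG Q)).1 x = x
  rw [h2, hG]
  rfl

end rad

end Cfsg.Agent.Lib.Helper95.AutO
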