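import Cfsg.Agent.Lib.Helper95.OmSiegGen

set_option autoImplicit false
set_option linter.unusedSimpArgs false

/-! Siegel (Eichler) transformations `ρ_{e,w}` for a singular vector `e` and an arbitrary `w ⊥ e`. -/

namespace Cfsg.Agent.Lib.Helper95.AutO

open QuadraticMap Module Cfsg.Agent.Lib.Helper49 Cfsg.Agent.Lib.Helper95

section sieg

variable {F V : Type*} [Field F] [AddCommGroup V] [Module F V] (Q : QuadraticForm F V)

/-- the Siegel map `x ↦ x + f(e,x) w - f(w,x) e - Q(w) f(e,x) e` -/
def siLin (e w : V) : V →ₗ[F] V :=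
  LinearMap.id + (LinearMap.toSpanSingleton F V w).comp (polarBilin Q e)
    - (LinearMap.toSpanSingleton F V e).comp (polarBilin Q w)
    - Q w • (LinearMap.toSpanSingleton F V e).comp (polarBilin Q e)

lemma siLin_apply (e w x : V) :
    siLin Q e w x = x + polar Q e x • w - polar Q w x • e - (Q w * polar Q e x) • e := by
  simp [siLin, LinearMap.toSpanSingleton_apply, smul_smul]

variable {Q}

lemma siLin_siLin {e w w' : V} (he : Q e = 0) (hw : polar Q e w = 0) (hw' : polar Q e w' = 0)
    (x : V) : siLin Q e w (siLin Q e w' x) = siLin Q e (w + w') x := by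
  have hee : polar Q e e = 0 := polar_self_of_Q he
  have hwe : polar Q w e = 0 := by rw [polar_comm]; exact hw
  simp only [siLin_apply, polar_add_right, polar_sub_right, polar_smul_right, polar_add_left,
    hee, hw, hw', hwe, qmap_add, smul_eq_mul, mul_zero, add_zero, sub_zero]
  module

lemma siLin_zero (e x : V) : siLin Q e 0 x = x := by
  simp [siLin_apply]

lemma Q_siLin {e w : V} (he : Q e = 0) (hw : polar Q e w = 0) (x : V) :
    Q (siLin Q e w x) = Q x := by
  have hee : polar Q e e = 0 := polar_self_of_Q he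
  have hwe : polar Q w e = 0 := by rw [polar_comm]; exact hw
  rw [siLin_apply, qmap_sub, qmap_sub, qmap_add]
  simp only [QuadraticMap.map_smul, he, polar_add_left, polar_sub_left, polar_smul_left,
    polar_smul_right, hee, hw, hwe, smul_eq_mul, mul_zero, add_zero, sub_zero]
  rw [polar_comm Q x w, polar_comm Q x e]
  ring

variable (Q)

open Classical in
/-- the Siegel transformation as an isometry (`1` if `e` is not singular or `w` not orthogonal
to `e`) -/
noncomputable def si (e w : V) : OG Q :=
  if h : Q e = 0 ∧ polar Q e w = 0 then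
    ⟨LinearEquiv.ofLinearMap (siLin Q e w) (siLin Q e (-w))
      (by
        ext x
        have := siLin_siLin h.1 h.2 (w' := -w) (by rw [polar_neg_right, h.2, neg_zero]) x
        rw [add_neg_cancel, siLin_zero] at this
        exact this)
      (by
        ext x
        have := siLin_siLin h.1 (w := -w) (by rw [polar_neg_right, h.2, neg_zero]) h.2 x
        rw [neg_add_cancel, siLin_zero] at this
        exact this), fun x => Q_siLin h.1 h.2 x⟩
  else 1

variable {Q}

lemma si_apply {e w : V} (he : Q e = 0) (hw : polar Q e w = 0) (x : V) :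
    (si Q e w).1 x = x + polar Q e x • w - polar Q w x • e - (Q w * polar Q e x) • e := by
  rw [si, dif_pos ⟨he, hw⟩]
  exact siLin_apply Q e w x

lemma si_mul {e w w' : V} (he : Q e = 0) (hw : polar Q e w = 0) (hw' : polar Q e w' = 0) :
    si Q e w * si Q e w' = si Q e (w + w') := by
  apply OG_ext
  intro x
  have h3 : polar Q e (w + w') = 0 := by rw [polar_add_right, hw, hw', add_zero]
  rw [Subgroup.coe_mul, LinearEquiv.mul_apply, si_apply he hw, si_apply he hw', si_apply he h3,
    ← siLin_apply, ← siLin_apply, ← siLin_apply, siLin_siLin he hw hw']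

lemma si_zero (e : V) : si Q e 0 = 1 := by
  by_cases he : Q e = 0
  · apply OG_ext
    intro x
    rw [si_apply he (by simp)]
    simp
  · rw [si, dif_neg (fun h => he h.1)]

lemma si_inv {e w : V} (he : Q e = 0) (hw : polar Q e w = 0) : (si Q e w)⁻¹ = si Q e (-w) := by
  apply inv_eq_of_mul_eq_one_right
  rw [si_mul he hw (by rw [polar_neg_right, hw, neg_zero]), add_neg_cancel, si_zero]

lemma si_comm {e w w' : V} (he : Q e = 0) (hw : polar Q e w = 0) (hw' : polar Q e w' = 0) :
    si Q e w * si Q e w' = si Q e w' * si Q e w := by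
  rw [si_mul he hw hw', si_mul he hw' hw, add_comm]

lemma si_conj (e w : V) (g : OG Q) : g * si Q e w * g⁻¹ = si Q (g.1 e) (g.1 w) := by
  by_cases h : Q e = 0 ∧ polar Q e w = 0
  · have h1 : Q (g.1 e) = 0 := by rw [OG_apply, h.1]
    have h2 : polar Q (g.1 e) (g.1 w) = 0 := by rw [OG_polar, h.2]
    rw [mul_inv_eq_iff_eq_mul]
    apply OG_ext
    intro x
    simp only [Subgroup.coe_mul, LinearEquiv.mul_apply, si_apply h.1 h.2, si_apply h1 h2, map_add,
      map_sub, map_smul, OG_polar, OG_apply]
  · have h' : ¬ (Q (g.1 e) = 0 ∧ polar Q (g.1 e) (g.1 w) = 0) := by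
      rw [OG_apply, OG_polar]; exact h
    rw [si, si, dif_neg h, dif_neg h']
    group

lemma si_add_smul {e w : V} (he : Q e = 0) (hw : polar Q e w = 0) (c : F) :
    si Q e (w + c • e) = si Q e w := by
  have hee : polar Q e e = 0 := polar_self_of_Q he
  have hwe : polar Q w e = 0 := by rw [polar_comm]; exact hw
  have h3 : polar Q e (w + c • e) = 0 := by
    rw [polar_add_right, polar_smul_right, hw, hee]; simp
  apply OG_ext
  intro x
  rw [si_apply he hw, si_apply he h3]
  simp only [qmap_add, QuadraticMap.map_smul, he, polar_add_left, polar_smul_left,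
    polar_smul_right, hwe, smul_eq_mul, mul_zero, add_zero]
  module

lemma si_smul_left {e w : V} (he : Q e = 0) (hw : polar Q e w = 0) (c : F) :
    si Q (c • e) w = si Q e (c • w) := by
  have h1 : Q (c • e) = 0 := by rw [QuadraticMap.map_smul, he]; simp
  have h2 : polar Q (c • e) w = 0 := by rw [polar_smul_left, hw]; simp
  have h3 : polar Q e (c • w) = 0 := by rw [polar_smul_right, hw]; simp
  apply OG_ext
  intro x
  rw [si_apply h1 h2, si_apply he h3]
  simp only [QuadraticMap.map_smul, polar_smul_left, smul_eq_mul]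
  module

/-- for a pair of singular vectors this is the long root element -/
lemma si_eq_sg {e w : V} (h : SPair Q e w) : si Q e w = sg h := by
  apply OG_ext
  intro x
  rw [si_apply h.qu h.uv, sg_apply, h.qv]
  simp

lemma si_symm {e w : V} (h : SPair Q e w) : si Q e w = si Q w (-e) := by
  apply OG_ext
  intro x
  rw [si_apply h.qu h.uv, si_apply h.qv (by rw [polar_neg_right, h.vu, neg_zero]), h.qv,
    QuadraticMap.map_neg, h.qu, polar_neg_left]
  module

lemma si_fix_self {e w : V} (he : Q e = 0) (hw : polar Q e w = 0) : (si Q e w).1 e = e := by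
  have hee : polar Q e e = 0 := polar_self_of_Q he
  have hwe : polar Q w e = 0 := by rw [polar_comm]; exact hw
  rw [si_apply he hw, hee, hwe]
  simp

lemma si_apply_perp {e w x : V} (he : Q e = 0) (hw : polar Q e w = 0) (hx : polar Q e x = 0) :
    (si Q e w).1 x = x - polar Q w x • e := by
  rw [si_apply he hw, hx]
  simp

lemma si_eq_one_iff (hQ : (polarBilin Q).Nondegenerate) {e w : V} (he : Q e = 0) (he0 : e ≠ 0)
    (hw : polar Q e w = 0) : si Q e w = 1 ↔ ∃ c : F, w = c • e := by
  constructor
  · intro h
    obtain ⟨y, hy⟩ := qexists_dual Q hQ he0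
    have h1 : (si Q e w).1 y = y := by rw [h]; rfl
    rw [si_apply he hw, hy] at h1
    refine ⟨polar Q w y + Q w, ?_⟩
    have h2 : y + (1 : F) • w - polar Q w y • e - (Q w * 1) • e - y = 0 := by rw [h1, sub_self]
    have h3 : w = (polar Q w y + Q w) • e := by
      have : w - (polar Q w y + Q w) • e = 0 := by
        rw [← h2]; module
      exact sub_eq_zero.1 this
    exact h3
  · rintro ⟨c, rfl⟩
    have := si_add_smul (Q := Q) he (w := 0) (by simp) c
    rw [zero_add, si_zero] at this
    exact this

lemma si_eq_si_iff (hQ : (polarBilin Q).Nondegenerate) {e w w' : V} (he : Q e = 0) (he0 : e ≠ 0)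
    (hw : polar Q e w = 0) (hw' : polar Q e w' = 0) :
    si Q e w = si Q e w' ↔ ∃ c : F, w = w' + c • e := by
  have h1 : polar Q e (-w') = 0 := by rw [polar_neg_right, hw', neg_zero]
  have h2 : polar Q e (w + -w') = 0 := by rw [polar_add_right, hw, h1, add_zero]
  rw [← mul_inv_eq_one, si_inv he hw', si_mul he hw h1, si_eq_one_iff hQ he he0 h2]
  constructor
  · rintro ⟨c, hc⟩
    exact ⟨c, by rw [← hc]; abel⟩
  · rintro ⟨c, hc⟩
    exact ⟨c, by rw [hc]; abel⟩

end sieg

end Cfsg.Agent.Lib.Helper95.AutO
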